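import Mathlib
import Cfsg.Agent.Lib.ChevAut.WClosed
import Cfsg.Agent.Lib.ChevCanon
import Cfsg.Agent.Lib.ChevTransfer

/-!
# Subfield subgroups of Chevalley groups

For an automorphism `f` of the field `F`, with `σ` the entrywise action on `GL`:
* an element of `G` conjugating root elements `x_s(c)` (`s > 0`, `c ≠ 0`) into `U` lies in `B`;
* an element commuting with every `x_s(1)` is trivial;
* `G_σ = L T_σ`, where `L` is generated by the root elements over the fixed field.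
-/

set_option autoImplicit false
set_option linter.unusedSectionVars false
set_option linter.unusedVariables false
set_option linter.unnecessarySimpa false

namespace Cfsg.Agent.Lib.ChevAut.SubField

open Cfsg Cfsg.Lie Matrix Cfsg.Agent.Lib.Chev Cfsg.Agent.Lib.Chev.Full Cfsg.Agent.Lib.Chev.Tri
open Cfsg.Agent.Lib.ChevAut.LongRoot Cfsg.Agent.Lib.ChevAut.RootCent Cfsg.Agent.Lib.ChevAut.ParabFit Equiv
open Cfsg.Agent.Lib.ChevAut.WClosed

variable {T : Tabs} {X : Extra} {R : RootTab} {D : ChevalleyDatum} (hF : Full T X R D)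
variable {F : Type*} [Field F]

include hF

/-- The Bruhat decomposition in the form used here. -/
theorem exists_bruhat {g : GL D.Idx F} (hg : g ∈ D.group F) :
    ∃ b ∈ D.borelSubgroup F, ∃ n : ↥(D.monomialSubgroup F), ∃ b' ∈ D.borelSubgroup F, g = b * n.1 * b' := by
  obtain ⟨n, hn, hg'⟩ := Cfsg.Agent.Lib.BNPair.exists_mem_dc (P := hF.bnPair F) (⟨g, hg⟩ : ↥(D.group F))
  obtain ⟨b, hb, b', hb', e⟩ := Cfsg.Agent.Lib.BNPair.mem_dc.1 hg'
  exact ⟨b.1, Subgroup.mem_subgroupOf.1 hb, ⟨n.1, Subgroup.mem_subgroupOf.1 hn⟩, b'.1, Subgroup.mem_subgroupOf.1 hb',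
    congrArg Subtype.val e⟩

theorem U_le_B {u : GL D.Idx F} (hu : u ∈ D.posUnipotent F) : u ∈ D.borelSubgroup F :=
  hF.mem_borel_iff.2 ⟨u, hu, 1, Subgroup.one_mem _, by simp⟩

/-- The leading coefficient is visible on any half space containing the element. -/
theorem lead_pos {a : ℕ → ℤ} {k : ℕ} (hk : R.N ≤ k) (hkn : k < D.nroots) {c : F} (hc : c ≠ 0)
    {z : GL D.Idx F} (hz : z ∈ Uk D F (k + 1))
    (hy : hF.c.xG k c * z ∈ rootClosure D F (fun s => s < D.nroots ∧ 0 < R.lin D.rank a s)) :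
    0 < R.lin D.rank a k := by
  by_contra hcon
  have hcon' : R.lin D.rank a k ≤ 0 := not_lt.1 hcon
  obtain ⟨ℓ, d, M, hd, hℓ⟩ := Full.exists_lev R D a
  obtain ⟨ℓ', d', M', hd', hℓ'⟩ := Full.exists_lev R D hF.phiW
  have hle : rootClosure D F (fun s => s < D.nroots ∧ 0 < R.lin D.rank a s) ≤ UT (F := F) ℓ 0 d hd := by
    rw [rootClosure, Subgroup.closure_le]
    rintro g ⟨s, t, hs, hg⟩
    rw [SetLike.mem_coe, mem_UT, hg]
    exact x_sub_one_mem_lin hF hℓ hs.1 hs.2 t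
  have hΦk := hF.phi_pos hkn hk
  set m : ℕ := (R.lin D.rank hF.phiW k).toNat with hm
  have hm1 : (m : ℤ) = R.lin D.rank hF.phiW k := by
    rw [hm]
    omega
  have hle2 : Uk D F (k + 1) ≤ UT (F := F) ℓ' m d' hd' := by
    unfold Uk rootClosure
    rw [Subgroup.closure_le]
    rintro g ⟨s, t, hs, hg⟩
    rw [SetLike.mem_coe, hF.c.eq_xG hg, mem_UT, Checks.coe_xG]
    intro i j hij
    by_cases hne : i = j
    · subst hne
      simp [Matrix.sub_apply, hF.x_entry_self hs.2 t i]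
    · rw [Matrix.sub_apply, Matrix.one_apply_ne hne, sub_zero]
      by_contra h0
      obtain ⟨e, he, h1⟩ := hF.x_entry_ne hs.2 hne h0
      have h2 := hF.gr_add hF.phiW h1
      have h3 : R.lin D.rank hF.phiW k < R.lin D.rank hF.phiW s := hF.phi_strict (by omega) hs.2
      have h5 : (1 : ℤ) ≤ e := by exact_mod_cast he
      have h6 : R.lin D.rank hF.phiW s ≤ (e : ℤ) * R.lin D.rank hF.phiW s := by
        have : 0 < R.lin D.rank hF.phiW s := by omega
        nlinarith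
      have h7 := hℓ' i
      have h8 := hℓ' j
      omega
  have hz1 := hle2 hz
  rw [mem_UT] at hz1
  have hy1 := hle hy
  rw [mem_UT] at hy1
  have hn := hF.neg_lt hkn
  have hlneg : R.lin D.rank hF.phiW (D.neg k) = - R.lin D.rank hF.phiW k := hF.lin_neg _ hkn
  -- the coefficient
  have hent : ∀ i : Fin D.rank, ((hF.c.xG k c * z : GL D.Idx F) : Matrix D.Idx D.Idx F) (Sum.inl i) (Sum.inr ⟨D.neg k, hn⟩) =
      (((D.coroot.getD k #[]).getD i 0 : ℤ) : F) * c := by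
    intro i
    rw [Units.val_mul, Matrix.mul_apply, Finset.sum_eq_single (Sum.inr ⟨D.neg k, hn⟩)]
    · have h1 : (z : Matrix D.Idx D.Idx F) (Sum.inr ⟨D.neg k, hn⟩) (Sum.inr ⟨D.neg k, hn⟩) = 1 := by
        have := hz1 (Sum.inr ⟨D.neg k, hn⟩) (Sum.inr ⟨D.neg k, hn⟩) (by omega)
        rw [Matrix.sub_apply, Matrix.one_apply_eq] at this
        exact sub_eq_zero.1 this
      rw [h1, mul_one, Checks.coe_xG, hF.x_entry_coroot hkn]
    · intro b _ hb
      by_cases h2 : (z : Matrix D.Idx D.Idx F) b (Sum.inr ⟨D.neg k, hn⟩) = 0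
      · rw [h2, mul_zero]
      · have h3 : ℓ' (Sum.inr ⟨D.neg k, hn⟩) + (m + 1) ≤ ℓ' b := by
          by_contra h4
          apply h2
          have := hz1 b (Sum.inr ⟨D.neg k, hn⟩) (by omega)
          rw [Matrix.sub_apply, Matrix.one_apply_ne hb, sub_zero] at this
          exact this
        have h7 := hℓ' b
        have h8 := hℓ' (Sum.inr ⟨D.neg k, hn⟩)
        rw [gr_inr] at h8
        simp only at h8
        rw [hlneg] at h8
        have h9 : 1 ≤ gr R D hF.phiW b := by omega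
        by_cases h10 : (Sum.inl i : D.Idx) = b
        · subst h10
          rw [gr_inl] at h9
          omega
        · by_cases h11 : D.x F k c (Sum.inl i) b = 0
          · rw [Checks.coe_xG, h11, zero_mul]
          · obtain ⟨e, he, h1⟩ := hF.x_entry_ne hkn h10 h11
            have h12 := hF.gr_add hF.phiW h1
            rw [gr_inl] at h12
            have h13 : (1 : ℤ) ≤ e := by exact_mod_cast he
            nlinarith
    · intro h
      exact absurd (Finset.mem_univ _) h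
  -- a coefficient does not vanish
  have hne : ∃ i : Fin D.rank, (((D.coroot.getD k #[]).getD i 0 : ℤ) : F) * c ≠ 0 := by
    by_contra hall
    push Not at hall
    apply hc
    have hb := hF.r.bez k hkn
    rw [sumZ_eq] at hb
    have hb2 := congrArg (fun z : ℤ => (z : F) * c) hb
    simp only [Int.cast_sum, Int.cast_mul, Int.cast_one, one_mul, Finset.sum_mul] at hb2
    rw [← hb2]
    apply Finset.sum_eq_zero
    intro i hi
    rw [mul_assoc, hall ⟨i, Finset.mem_range.1 hi⟩, mul_zero]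
  obtain ⟨i, hi⟩ := hne
  have h1 := hy1 (Sum.inl i) (Sum.inr ⟨D.neg k, hn⟩) (by
    have h7 := hℓ (Sum.inl i)
    have h8 := hℓ (Sum.inr ⟨D.neg k, hn⟩)
    rw [gr_inl] at h7
    rw [gr_inr] at h8
    have h9 : R.lin D.rank a (D.neg k) = - R.lin D.rank a k := hF.lin_neg _ hkn
    simp only at h8
    rw [h9] at h8
    omega)
  rw [Matrix.sub_apply, Matrix.one_apply_ne (by simp), sub_zero, hent i] at h1
  exact hi h1

/-- The form of a conjugate of a root element by an element of `B`. -/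
theorem conj_borel_form {k : ℕ} (hk : R.N ≤ k) (hkn : k < D.nroots) {b : GL D.Idx F}
    (hb : b ∈ D.borelSubgroup F) {c : F} (hc : c ≠ 0) :
    ∃ d : F, d ≠ 0 ∧ ∃ z ∈ Uk D F (k + 1), b * hF.c.xG k c * b⁻¹ = hF.c.xG k d * z := by
  obtain ⟨u, hu, h, hh, rfl⟩ := hF.mem_borel_iff.1 hb
  obtain ⟨e, rfl⟩ := hF.mem_diagonal_iff.1 hh
  refine ⟨((chiT D e k : Fˣ) : F) * c, mul_ne_zero (Units.ne_zero _) hc, ?_⟩
  have h1 : u * tor R D e * hF.c.xG k c * (u * tor R D e)⁻¹ =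
      u * hF.c.xG k (((chiT D e k : Fˣ) : F) * c) * u⁻¹ := by
    rw [← hF.tor_conj_xG e hkn c]
    group
  rw [h1]
  set y := hF.c.xG k (((chiT D e k : Fˣ) : F) * c) with hy
  have h2 := hF.comm_xG_mem_Uk hk hkn hu (((chiT D e k : Fˣ) : F) * c)
  rw [← hy] at h2
  have h3 : y⁻¹ * (u * y * u⁻¹ * y⁻¹) * y ∈ Uk D F (k + 1) := by
    have h4 := hF.xG_mem_normalizer_Uk hkn hk (k := k + 1) (by omega) (-(((chiT D e k : Fˣ) : F) * c))
    rw [← hF.c.xG_inv, ← hy] at h4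
    have := (Subgroup.mem_set_normalizer_iff.1 h4 _).1 h2
    simpa using this
  refine ⟨_, h3, ?_⟩
  group

/-- An element of `G` carrying some `x_s(c)`, for every positive `s`, into `U` lies in `B`. -/
theorem borel_of_conj_pos {g : GL D.Idx F} (hg : g ∈ D.group F)
    (h : ∀ s, R.N ≤ s → s < D.nroots → ∃ c : F, c ≠ 0 ∧ g * hF.c.xG s c * g⁻¹ ∈ D.posUnipotent F) :
    g ∈ D.borelSubgroup F := by
  obtain ⟨b, hb, n, b', hb', rfl⟩ := exists_bruhat hF hg
  obtain ⟨a', ha'⟩ := hF.exists_lin (hF.rhoN_mem_Wk n) hF.phiW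
  have hpos : ∀ s : Fin D.nroots, R.N ≤ (s : ℕ) → R.N ≤ ((hF.rhoN F n s : Fin D.nroots) : ℕ) := by
    rintro ⟨k, hkn⟩ hk
    obtain ⟨c, hc, hcU⟩ := h k hk hkn
    obtain ⟨d, hd, z, hz, e⟩ := conj_borel_form hF hk hkn hb' hc
    -- `n y n⁻¹ ∈ U`
    have h1 : n.1 * (hF.c.xG k d * z) * n.1⁻¹ ∈ D.posUnipotent F := by
      rw [← e]
      have h2 : n.1 * (b' * hF.c.xG k c * b'⁻¹) * n.1⁻¹ =
          b⁻¹ * (b * n.1 * b' * hF.c.xG k c * (b * n.1 * b')⁻¹) * b := by group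
      rw [h2]
      have h3 := Cfsg.Agent.Lib.ChevFix2.conj_U_of_borel hF (Subgroup.inv_mem _ hb) hcU
      simpa using h3
    -- hence `y` is in the half space
    have h4 : ∀ u ∈ D.posUnipotent F, n.1⁻¹ * u * n.1 ∈ rootClosure D F (fun s => s < D.nroots ∧ 0 < R.lin D.rank a' s) := by
      intro u hu
      induction hu using Subgroup.closure_induction with
      | mem x hx =>
        obtain ⟨r, t, hr, hx⟩ := hx
        obtain ⟨hr1, hr2⟩ := (hF.isPos_iff).1 hr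
        rw [hF.c.eq_xG hx]
        obtain ⟨v, hv⟩ := hF.rhoN_spec_apply n⁻¹ ⟨r, hr1⟩
        have h5 := hv t
        have h6 : n.1⁻¹ * hF.c.xG r t * n.1 = hF.c.xG ((hF.rhoN F n⁻¹ ⟨r, hr1⟩ : Fin D.nroots) : ℕ) ((v : F) * t) := by
          rw [← h5]
          simp
        rw [h6]
        apply Subgroup.subset_closure
        refine ⟨_, _, ⟨(hF.rhoN F n⁻¹ ⟨r, hr1⟩).2, ?_⟩, Checks.coe_xG _ _ _⟩
        rw [← ha', map_inv]
        have h7 : (hF.rhoN F n) ((hF.rhoN F n)⁻¹ ⟨r, hr1⟩) = ⟨r, hr1⟩ := by simp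
        rw [h7]
        exact hF.phi_pos hr1 hr2
      | one => simpa using Subgroup.one_mem _
      | mul x y _ _ hx hy =>
        have : n.1⁻¹ * (x * y) * n.1 = (n.1⁻¹ * x * n.1) * (n.1⁻¹ * y * n.1) := by group
        rw [this]
        exact Subgroup.mul_mem _ hx hy
      | inv x _ hx =>
        have : n.1⁻¹ * x⁻¹ * n.1 = (n.1⁻¹ * x * n.1)⁻¹ := by group
        rw [this]
        exact Subgroup.inv_mem _ hx
    have h8 := h4 _ h1
    have h9 : n.1⁻¹ * (n.1 * (hF.c.xG k d * z) * n.1⁻¹) * n.1 = hF.c.xG k d * z := by group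
    rw [h9] at h8
    have h10 := lead_pos hF hk hkn hd hz h8
    rw [← ha'] at h10
    by_contra hcon
    have h11 := hF.phi_neg (not_le.1 hcon)
    omega
  have hinv : invF R D (hF.rhoN F n) = 0 := by
    unfold invF
    rw [Finset.card_eq_zero, Finset.filter_eq_empty_iff]
    rintro s - ⟨h1, h2⟩
    have := hpos s h1
    omega
  have hrho := hF.eq_one_of_invF (hF.rhoN_mem_Wk n) hinv
  have hnT := hF.mem_diagonal_of_rhoN_eq_one hrho
  exact Subgroup.mul_mem _ (Subgroup.mul_mem _ hb (hF.c.diagonal_le_borel hnT)) hb'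


/-- Conjugating a root closure by an element of `N`. -/
theorem conj_rootClosure (n : ↥(D.monomialSubgroup F)) {Q Q' : ℕ → Prop}
    (h : ∀ r, Q r → ∃ hr : r < D.nroots, Q' ((hF.rhoN F n ⟨r, hr⟩ : Fin D.nroots) : ℕ))
    {x : GL D.Idx F} (hx : x ∈ rootClosure D F Q) : n.1 * x * n.1⁻¹ ∈ rootClosure D F Q' := by
  induction hx using Subgroup.closure_induction with
  | mem x hx =>
    obtain ⟨r, t, hr, hx⟩ := hx
    obtain ⟨hr1, hr2⟩ := h r hr
    rw [hF.c.eq_xG hx]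
    obtain ⟨v, hv⟩ := hF.rhoN_spec_apply n ⟨r, hr1⟩
    rw [show hF.c.xG r t = hF.c.xG ((⟨r, hr1⟩ : Fin D.nroots) : ℕ) t from rfl, hv t]
    exact hF.xG_mem_rootClosure hr2 _
  | one => simpa using Subgroup.one_mem _
  | mul x y _ _ hx hy =>
    have : n.1 * (x * y) * n.1⁻¹ = (n.1 * x * n.1⁻¹) * (n.1 * y * n.1⁻¹) := by group
    rw [this]
    exact Subgroup.mul_mem _ hx hy
  | inv x _ hx =>
    have : n.1 * x⁻¹ * n.1⁻¹ = (n.1 * x * n.1⁻¹)⁻¹ := by group
    rw [this]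
    exact Subgroup.inv_mem _ hx

/-- An element of `G` commuting with all `x_s(1)` is trivial. -/
theorem eq_one_of_comm {g : GL D.Idx F} (hg : g ∈ D.group F)
    (h : ∀ s, s < D.nroots → g * hF.c.xG s 1 = hF.c.xG s 1 * g) : g = 1 := by
  have hB : g ∈ D.borelSubgroup F := by
    apply borel_of_conj_pos hF hg
    intro s hs hsn
    refine ⟨1, one_ne_zero, ?_⟩
    rw [h s hsn, mul_inv_cancel_right]
    exact hF.xG_mem_U hsn hs 1
  obtain ⟨n₀, -, hn₀⟩ := exists_longest hF (F := F) Set.univ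
  have hneg : ∀ (r : ℕ) (hr : r < D.nroots), R.N ≤ r → ((hF.rhoN F n₀ ⟨r, hr⟩ : Fin D.nroots) : ℕ) < R.N := by
    intro r hr hrp
    exact longest_neg hF (J := Set.univ) hn₀ hr hrp ⟨hr, fun i _ hi => absurd (Set.mem_univ i) hi⟩
  have hg'G : n₀.1⁻¹ * g * n₀.1 ∈ D.group F :=
    Subgroup.mul_mem _ (Subgroup.mul_mem _ (Subgroup.inv_mem _ (hF.c.monomial_le_group n₀.2)) hg) (hF.c.monomial_le_group n₀.2)
  have hB' : n₀.1⁻¹ * g * n₀.1 ∈ D.borelSubgroup F := by
    apply borel_of_conj_pos hF hg'G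
    intro s hs hsn
    obtain ⟨v, hv⟩ := hF.rhoN_spec_apply n₀ ⟨s, hsn⟩
    refine ⟨((v⁻¹ : Fˣ) : F), Units.ne_zero _, ?_⟩
    have h1 : n₀.1 * hF.c.xG s ((v⁻¹ : Fˣ) : F) * n₀.1⁻¹ = hF.c.xG ((hF.rhoN F n₀ ⟨s, hsn⟩ : Fin D.nroots) : ℕ) 1 := by
      have := hv ((v⁻¹ : Fˣ) : F)
      simpa using this
    have h2 := h _ (hF.rhoN F n₀ ⟨s, hsn⟩).2
    rw [← h1] at h2
    have h3 : n₀.1⁻¹ * g * n₀.1 * hF.c.xG s ((v⁻¹ : Fˣ) : F) * (n₀.1⁻¹ * g * n₀.1)⁻¹ = hF.c.xG s ((v⁻¹ : Fˣ) : F) := by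
      have h4 : g * (n₀.1 * hF.c.xG s ((v⁻¹ : Fˣ) : F) * n₀.1⁻¹) * g⁻¹ = n₀.1 * hF.c.xG s ((v⁻¹ : Fˣ) : F) * n₀.1⁻¹ := by
        rw [h2]
        group
      have h5 : n₀.1⁻¹ * g * n₀.1 * hF.c.xG s ((v⁻¹ : Fˣ) : F) * (n₀.1⁻¹ * g * n₀.1)⁻¹ =
          n₀.1⁻¹ * (g * (n₀.1 * hF.c.xG s ((v⁻¹ : Fˣ) : F) * n₀.1⁻¹) * g⁻¹) * n₀.1 := by group
      rw [h5, h4]
      group
    rw [h3]
    exact hF.xG_mem_U hsn hs _
  -- `g ∈ V H`
  obtain ⟨u, hu, t, ht, e⟩ := hF.mem_borel_iff.1 hB'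
  have hgeq : g = (n₀.1 * u * n₀.1⁻¹) * (n₀.1 * t * n₀.1⁻¹) := by
    have : g = n₀.1 * (n₀.1⁻¹ * g * n₀.1) * n₀.1⁻¹ := by group
    rw [this, e]
    group
  have hV : n₀.1 * u * n₀.1⁻¹ ∈ D.negUnipotent F := by
    have hV' : rootClosure D F (fun s => D.IsNegRoot s) = D.negUnipotent F := rfl
    rw [← hV']
    apply conj_rootClosure hF n₀ (Q := fun s => D.IsPosRoot s) _ hu
    intro r hr
    obtain ⟨hr1, hr2⟩ := (hF.isPos_iff).1 hr
    exact ⟨hr1, (hF.isNeg_iff).2 (hneg r hr1 hr2)⟩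
  have hT : n₀.1 * t * n₀.1⁻¹ ∈ D.diagonalSubgroup F :=
    (Subgroup.mem_set_normalizer_iff.1 (hF.monomial_le_normalizer n₀.2) t).1 ht
  have hgT : g ∈ D.diagonalSubgroup F := by
    rw [← hF.B_inf_VH]
    refine ⟨hB, ?_⟩
    rw [hgeq]
    exact Subgroup.mul_mem _ (Subgroup.mem_sup_left hV) (Subgroup.mem_sup_right hT)
  obtain ⟨c, rfl⟩ := hF.mem_diagonal_iff.1 hgT
  rw [hF.tor_eq, diagG_eq_one_iff]
  intro s hs
  have h1 := h s hs
  have h2 := hF.tor_conj_xG c hs 1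
  rw [h1, mul_inv_cancel_right, mul_one] at h2
  have h3 := hF.xG_param_inj hs h2
  exact Units.ext h3.symm


section sigma

open Cfsg.Agent.Lib.ChevTransfer

variable (f : F ≃+* F)

omit hF in
theorem sig_x (s : ℕ) (t : F) : (D.x F s t).map f = D.x F s (f t) := by
  unfold ChevalleyDatum.x
  by_cases hs : s < D.nroots
  · simp only [dif_pos hs]
    exact xMat_map D f ⟨s, hs⟩ t
  · simp only [dif_neg hs]
    exact Matrix.map_one (f : F → F) (map_zero f) (map_one f)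

theorem sig_xG (s : ℕ) (t : F) : glMap D f (hF.c.xG s t) = hF.c.xG s (f t) := by
  apply Units.ext
  rw [glMap_val, Checks.coe_xG, Checks.coe_xG, sig_x]

theorem sig_nG (r : ℕ) (t : F) : glMap D f (hF.c.nG r t) = hF.c.nG r (f t) := by
  unfold Checks.nG
  rw [map_mul, map_mul, sig_xG hF, sig_xG hF, map_neg, map_inv₀]

theorem sig_hG (r : ℕ) (t : F) : glMap D f (hF.c.hG r t) = hF.c.hG r (f t) := by
  unfold Checks.hG
  rw [map_mul, sig_nG hF, sig_nG hF, map_neg, map_one]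

theorem sig_nS (i : ℕ) : glMap D f (hF.nS i) = hF.nS i := by
  unfold Full.nS
  rw [sig_nG hF, map_one]

theorem sig_rootClosure {Q : ℕ → Prop} {x : GL D.Idx F} (hx : x ∈ rootClosure D F Q) :
    glMap D f x ∈ rootClosure D F Q := by
  induction hx using Subgroup.closure_induction with
  | mem x hx =>
    obtain ⟨r, t, hr, hx⟩ := hx
    rw [hF.c.eq_xG hx, sig_xG hF]
    exact hF.xG_mem_rootClosure hr _
  | one => simpa using Subgroup.one_mem _
  | mul x y _ _ hx hy =>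
    rw [map_mul]
    exact Subgroup.mul_mem _ hx hy
  | inv x _ hx =>
    rw [map_inv]
    exact Subgroup.inv_mem _ hx

theorem sig_diagonal {x : GL D.Idx F} (hx : x ∈ D.diagonalSubgroup F) :
    glMap D f x ∈ D.diagonalSubgroup F := by
  rw [ChevalleyDatum.diagonalSubgroup] at hx
  induction hx using Subgroup.closure_induction with
  | mem x hx =>
    obtain ⟨r, t, hr, ht, hx⟩ := hx
    rw [hF.c.eq_hG hx, sig_hG hF]
    exact hF.c.hG_mem_diagonal hr (by simpa using ht)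
  | one => simpa using Subgroup.one_mem _
  | mul x y _ _ hx hy =>
    rw [map_mul]
    exact Subgroup.mul_mem _ hx hy
  | inv x _ hx =>
    rw [map_inv]
    exact Subgroup.inv_mem _ hx

omit hF in
theorem sig_group {x : GL D.Idx F} (hx : x ∈ D.group F) : glMap D f x ∈ D.group F :=
  map_le D f ⟨x, hx, rfl⟩

theorem sig_ordW : ∀ (m k : ℕ), k + m = D.nroots → ∀ t : ℕ → F,
    glMap D f (hF.ordW k t) = hF.ordW k (fun r => f (t r)) := by
  intro m
  induction m with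
  | zero =>
    intro k hk t
    rw [hF.ordW_of_ge (by omega), hF.ordW_of_ge (by omega), map_one]
  | succ m ih =>
    intro k hk t
    have hkn : k < D.nroots := by omega
    rw [hF.ordW_succ hkn, hF.ordW_succ hkn, map_mul, sig_xG hF, ih (k + 1) (by omega)]

/-- The group generated by the root elements over the fixed field. -/
def Lf (D : ChevalleyDatum) {F : Type*} [Field F] (f : F ≃+* F) : Subgroup (GL D.Idx F) :=
  Subgroup.closure {g | ∃ (s : ℕ) (t : F), s < D.nroots ∧ f t = t ∧ (g : Matrix D.Idx D.Idx F) = D.x F s t}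

theorem xG_mem_Lf {s : ℕ} (hs : s < D.nroots) {t : F} (ht : f t = t) : hF.c.xG s t ∈ Lf D f :=
  Subgroup.subset_closure ⟨s, t, hs, ht, rfl⟩

theorem Lf_le_group : Lf D f ≤ D.group F := by
  unfold Lf
  rw [Subgroup.closure_le]
  rintro g ⟨s, t, hs, -, hg⟩
  rw [hF.c.eq_xG hg]
  exact hF.c.xG_mem_group hs t

theorem sig_of_mem_Lf {x : GL D.Idx F} (hx : x ∈ Lf D f) : glMap D f x = x := by
  unfold Lf at hx
  induction hx using Subgroup.closure_induction with
  | mem x hx =>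
    obtain ⟨s, t, hs, ht, hx⟩ := hx
    rw [hF.c.eq_xG hx, sig_xG hF, ht]
  | one => simp
  | mul x y _ _ hx hy => rw [map_mul, hx, hy]
  | inv x _ hx => rw [map_inv, hx]

theorem ordW_mem_Lf : ∀ (m k : ℕ), k + m = D.nroots → ∀ t : ℕ → F,
    (∀ r, k ≤ r → r < D.nroots → f (t r) = t r) → hF.ordW k t ∈ Lf D f := by
  intro m
  induction m with
  | zero =>
    intro k hk t _
    rw [hF.ordW_of_ge (by omega)]
    exact Subgroup.one_mem _
  | succ m ih =>
    intro k hk t ht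
    have hkn : k < D.nroots := by omega
    rw [hF.ordW_succ hkn]
    exact Subgroup.mul_mem _ (xG_mem_Lf hF f hkn (ht k le_rfl hkn))
      (ih (k + 1) (by omega) t (fun r h1 h2 => ht r (by omega) h2))

/-- Fixed points in `U` are over the fixed field. -/
theorem mem_Lf_of_U {u : GL D.Idx F} (hu : u ∈ D.posUnipotent F) (h : glMap D f u = u) : u ∈ Lf D f := by
  have hN : R.N ≤ D.nroots := by
    have := hF.two
    omega
  obtain ⟨t, rfl⟩ := hF.exists_ordW (D.nroots - R.N) R.N (by omega) le_rfl u (by simpa [hF.U_eq_Uk] using hu)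
  rw [sig_ordW hF f (D.nroots - R.N) R.N (by omega)] at h
  have h1 := hF.ordW_inj (D.nroots - R.N) R.N (by omega) le_rfl _ _ h
  exact ordW_mem_Lf hF f (D.nroots - R.N) R.N (by omega) t h1

theorem NJ_sig {x : GL D.Idx F} {J : Set ℕ} (hx : x ∈ NJ hF F J) : glMap D f x = x := by
  unfold NJ at hx
  induction hx using Subgroup.closure_induction with
  | mem x hx =>
    obtain ⟨j, _, _, rfl⟩ := hx
    exact sig_nS hF f j
  | one => simp
  | mul x y _ _ hx hy => rw [map_mul, hx, hy]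
  | inv x _ hx => rw [map_inv, hx]

theorem NJ_le_Lf (J : Set ℕ) : NJ hF F J ≤ Lf D f := by
  unfold NJ
  rw [Subgroup.closure_le]
  rintro g ⟨j, hj, _, rfl⟩
  have hs := hF.simple_lt hj
  unfold Full.nS Checks.nG
  refine Subgroup.mul_mem _ (Subgroup.mul_mem _ (xG_mem_Lf hF f hs (map_one f)) (xG_mem_Lf hF f (hF.neg_lt hs) ?_))
    (xG_mem_Lf hF f hs (map_one f))
  simp

/-- A representative of an element of `N` modulo `H` in the group generated by the `n_i`. -/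
theorem exists_NJ_rep : ∀ (k : ℕ) (n : ↥(D.monomialSubgroup F)), invF R D (hF.rhoN F n) = k →
    ∃ n' ∈ NJ hF F Set.univ, n'⁻¹ * n.1 ∈ D.diagonalSubgroup F := by
  intro k
  induction k with
  | zero =>
    intro n hn
    exact ⟨1, Subgroup.one_mem _, by
      simpa using hF.mem_diagonal_of_rhoN_eq_one (hF.eq_one_of_invF (hF.rhoN_mem_Wk n) hn)⟩
  | succ k ih =>
    intro n hn
    obtain ⟨i, hi, -, hneg⟩ := hF.exists_simple_neg (hF.rhoN_mem_Wk n) (by omega)
    have h1 := (hF.invF_mul (hF.rhoN_mem_Wk n) hi).2 hneg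
    let n₂ : ↥(D.monomialSubgroup F) := n * (hF.nN hi)⁻¹
    have hsq : hF.rhoN F n₂ = hF.rhoN F n * hF.wPerm hi := by
      rw [map_mul, map_inv, hF.rhoN_nN, hF.wPerm_inv]
    obtain ⟨n', hn', e⟩ := ih n₂ (by rw [hsq]; omega)
    refine ⟨n' * hF.nS i, Subgroup.mul_mem _ hn' (Subgroup.subset_closure ⟨i, hi, Set.mem_univ _, rfl⟩), ?_⟩
    have h2 : (n' * hF.nS i)⁻¹ * n.1 = (hF.nS i)⁻¹ * (n'⁻¹ * n₂.1) * hF.nS i := by
      show _ = (hF.nS i)⁻¹ * (n'⁻¹ * (n.1 * (hF.nS i)⁻¹)) * hF.nS i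
      group
    rw [h2]
    have h4 := (Subgroup.mem_set_normalizer_iff.1 (Subgroup.inv_mem _ (hF.nS_mem_normalizer (F := F) hi)) _).1 e
    simpa using h4

/-- The fixed points of `σ` on `G`. -/
theorem fixed_decomp {g : GL D.Idx F} (hg : g ∈ D.group F) (hfix : glMap D f g = g) :
    ∃ l ∈ Lf D f, ∃ h ∈ D.diagonalSubgroup F, glMap D f h = h ∧ g = l * h := by
  obtain ⟨b, hb, n₁, b', hb', rfl⟩ := exists_bruhat hF hg
  obtain ⟨n, hn, hn1⟩ := exists_NJ_rep hF (F := F) _ n₁ rfl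
  have hnN : n ∈ D.monomialSubgroup F := NJ_le_monomial hF _ hn
  set nn : ↥(D.monomialSubgroup F) := ⟨n, hnN⟩ with hnn
  obtain ⟨u₁, hu₁, h₂, hh₂, rfl⟩ := hF.mem_borel_iff.1 hb
  -- `g = u₁ n b₃`
  have hinvT : n⁻¹ * h₂ * n ∈ D.diagonalSubgroup F := by
    have := (Subgroup.mem_set_normalizer_iff.1 (hF.monomial_le_normalizer (Subgroup.inv_mem _ hnN)) h₂).1 hh₂
    simpa using this
  set b₃ := (n⁻¹ * h₂ * n) * (n⁻¹ * n₁.1) * b' with hb₃
  have hb₃B : b₃ ∈ D.borelSubgroup F :=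
    Subgroup.mul_mem _ (Subgroup.mul_mem _ (hF.c.diagonal_le_borel hinvT) (hF.c.diagonal_le_borel hn1)) hb'
  have e1 : u₁ * h₂ * n₁.1 * b' = u₁ * n * b₃ := by
    rw [hb₃]
    group
  -- factor `u₁`
  let P : ℕ → Prop := fun r => ∃ hr : r < D.nroots, R.N ≤ r ∧ ((hF.rhoN F nn⁻¹ ⟨r, hr⟩ : Fin D.nroots) : ℕ) < R.N
  let Q : ℕ → Prop := fun r => ∃ hr : r < D.nroots, R.N ≤ r ∧ R.N ≤ ((hF.rhoN F nn⁻¹ ⟨r, hr⟩ : Fin D.nroots) : ℕ)
  obtain ⟨um, hum, up, hup, e2⟩ := hF.exists_factor P Q (by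
    intro r hr
    obtain ⟨hr1, hr2⟩ := (hF.isPos_iff).1 hr
    by_cases h : ((hF.rhoN F nn⁻¹ ⟨r, hr1⟩ : Fin D.nroots) : ℕ) < R.N
    · exact Or.inl ⟨hr1, hr2, h⟩
    · exact Or.inr ⟨hr1, hr2, not_lt.1 h⟩) hu₁
  have hconjU : n⁻¹ * up * n ∈ D.posUnipotent F := by
    have hU' : rootClosure D F (fun s => D.IsPosRoot s) = D.posUnipotent F := rfl
    rw [← hU']
    have := conj_rootClosure hF nn⁻¹ (Q := Q) (Q' := fun s => D.IsPosRoot s) (by
      rintro r ⟨hr1, _, h⟩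
      exact ⟨hr1, (hF.isPos_iff).2 ⟨(hF.rhoN F nn⁻¹ ⟨r, hr1⟩).2, h⟩⟩) hup
    simpa [hnn] using this
  have hconjV : ∀ {y : GL D.Idx F}, y ∈ rootClosure D F P → n⁻¹ * y * n ∈ D.negUnipotent F := by
    intro y hy
    have hV' : rootClosure D F (fun s => D.IsNegRoot s) = D.negUnipotent F := rfl
    rw [← hV']
    have := conj_rootClosure hF nn⁻¹ (Q := P) (Q' := fun s => D.IsNegRoot s) (by
      rintro r ⟨hr1, _, h⟩
      exact ⟨hr1, (hF.isNeg_iff).2 h⟩) hy
    simpa [hnn] using this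
  have hPU : rootClosure D F P ≤ D.posUnipotent F := by
    rw [rootClosure, Subgroup.closure_le]
    rintro g ⟨r, t, ⟨hr1, hr2, _⟩, hg⟩
    rw [SetLike.mem_coe, hF.c.eq_xG hg]
    exact hF.xG_mem_U hr1 hr2 t
  set b₄ := (n⁻¹ * up * n) * b₃ with hb₄
  have hb₄B : b₄ ∈ D.borelSubgroup F :=
    Subgroup.mul_mem _ (U_le_B hF hconjU) hb₃B
  have e3 : u₁ * n * b₃ = um * n * b₄ := by
    rw [e2, hb₄]
    group
  rw [e1, e3] at hfix ⊢
  -- apply `σ`
  rw [map_mul, map_mul, NJ_sig hF f hn] at hfix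
  have hsigum := sig_rootClosure hF f hum
  have hsigb : glMap D f b₄ ∈ D.borelSubgroup F := by
    obtain ⟨u, hu, t, ht, e⟩ := hF.mem_borel_iff.1 hb₄B
    rw [e, map_mul]
    exact Subgroup.mul_mem _ (U_le_B hF (sig_rootClosure hF f hu)) (hF.c.diagonal_le_borel (sig_diagonal hF f ht))
  -- the two parts are fixed
  set v := um⁻¹ * glMap D f um with hv
  have hvP : v ∈ rootClosure D F P := Subgroup.mul_mem _ (Subgroup.inv_mem _ hum) hsigum
  have hnv : n⁻¹ * v * n = b₄ * (glMap D f b₄)⁻¹ := by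
    have h1 : glMap D f um = um * v := by rw [hv]; group
    rw [h1] at hfix
    have h2 : um * v * n * glMap D f b₄ = um * n * b₄ := hfix
    have h3 : v * n * glMap D f b₄ = n * b₄ := by
      have := congrArg (fun x => um⁻¹ * x) h2
      simpa [mul_assoc] using this
    have h4 : n⁻¹ * v * n = n⁻¹ * (v * n * glMap D f b₄) * (glMap D f b₄)⁻¹ := by group
    rw [h4, h3]
    group
  have hv1 : n⁻¹ * v * n = 1 := by
    have h5 : n⁻¹ * v * n ∈ D.borelSubgroup F ⊓ D.negUnipotent F :=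
      ⟨by rw [hnv]; exact Subgroup.mul_mem _ hb₄B (Subgroup.inv_mem _ hsigb), hconjV hvP⟩
    rw [hF.B_inf_V] at h5
    exact h5
  have hv2 : v = 1 := by
    have h6 : v = n * (n⁻¹ * v * n) * n⁻¹ := by group
    rw [h6, hv1]
    group
  have hum1 : glMap D f um = um := by
    have h7 : glMap D f um = um * v := by rw [hv]; group
    rw [h7, hv2, mul_one]
  have hb₄1 : glMap D f b₄ = b₄ := by
    have h8 : b₄ * (glMap D f b₄)⁻¹ = 1 := by rw [← hnv, hv1]
    exact (mul_inv_eq_one.1 h8).symm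
  -- split `b₄`
  obtain ⟨u₄, hu₄, h₄, hh₄, e4⟩ := hF.mem_borel_iff.1 hb₄B
  have hsplit : u₄⁻¹ * glMap D f u₄ = h₄ * (glMap D f h₄)⁻¹ := by
    rw [e4, map_mul] at hb₄1
    have h9 : glMap D f u₄ * glMap D f h₄ = u₄ * h₄ := hb₄1
    have h10 : u₄⁻¹ * glMap D f u₄ = u₄⁻¹ * (glMap D f u₄ * glMap D f h₄) * (glMap D f h₄)⁻¹ := by group
    rw [h10, h9]
    group
  have hone : u₄⁻¹ * glMap D f u₄ = 1 := by
    have h11 : u₄⁻¹ * glMap D f u₄ ∈ D.posUnipotent F ⊓ D.diagonalSubgroup F :=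
      ⟨Subgroup.mul_mem _ (Subgroup.inv_mem _ hu₄) (sig_rootClosure hF f hu₄),
        by rw [hsplit]; exact Subgroup.mul_mem _ hh₄ (Subgroup.inv_mem _ (sig_diagonal hF f hh₄))⟩
    rw [hF.U_inf_H] at h11
    exact h11
  have hu₄1 : glMap D f u₄ = u₄ := by
    exact (inv_mul_eq_one.1 hone).symm
  have hh₄1 : glMap D f h₄ = h₄ := by
    have h12 : h₄ * (glMap D f h₄)⁻¹ = 1 := by rw [← hsplit, hone]
    exact (mul_inv_eq_one.1 h12).symm
  refine ⟨um * n * u₄, Subgroup.mul_mem _ (Subgroup.mul_mem _ (mem_Lf_of_U hF f (hPU hum) hum1) (NJ_le_Lf hF f _ hn))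
    (mem_Lf_of_U hF f hu₄ hu₄1), h₄, hh₄, hh₄1, ?_⟩
  rw [e4]
  group

/-- Fixed elements of the torus normalise `L`. -/
theorem conj_Lf {h : GL D.Idx F} (hh : h ∈ D.diagonalSubgroup F) (hfix : glMap D f h = h)
    {l : GL D.Idx F} (hl : l ∈ Lf D f) : h * l * h⁻¹ ∈ Lf D f := by
  obtain ⟨c, rfl⟩ := hF.mem_diagonal_iff.1 hh
  unfold Lf at hl
  induction hl using Subgroup.closure_induction with
  | mem x hx =>
    obtain ⟨s, t, hs, ht, hx⟩ := hx
    rw [hF.c.eq_xG hx, hF.tor_conj_xG c hs t]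
    apply xG_mem_Lf hF f hs
    rw [map_mul, ht]
    congr 1
    have h1 := congrArg (fun g : GL D.Idx F => (g : Matrix D.Idx D.Idx F) (Sum.inr ⟨s, hs⟩) (Sum.inr ⟨s, hs⟩)) hfix
    simp only [glMap_val, Matrix.map_apply] at h1
    rw [hF.tor_eq, coe_diagG] at h1
    simpa using h1
  | one => simpa using Subgroup.one_mem _
  | mul x y _ _ hx hy =>
    have : tor R D c * (x * y) * (tor R D c)⁻¹ = (tor R D c * x * (tor R D c)⁻¹) * (tor R D c * y * (tor R D c)⁻¹) := by group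
    rw [this]
    exact Subgroup.mul_mem _ hx hy
  | inv x _ hx =>
    have : tor R D c * x⁻¹ * (tor R D c)⁻¹ = (tor R D c * x * (tor R D c)⁻¹)⁻¹ := by group
    rw [this]
    exact Subgroup.inv_mem _ hx

/-- Elements of the torus commute. -/
theorem diagonal_comm {h k : GL D.Idx F} (hh : h ∈ D.diagonalSubgroup F) (hk : k ∈ D.diagonalSubgroup F) :
    h * k = k * h := by
  obtain ⟨c, rfl⟩ := hF.mem_diagonal_iff.1 hh
  obtain ⟨e, rfl⟩ := hF.mem_diagonal_iff.1 hk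
  rw [tor_mul, tor_mul, mul_comm]

/-- Conjugation by a fixed element of `G` preserves every group between `L` and the fixed points. -/
theorem conj_mem_of_fixed {K : Subgroup (GL D.Idx F)} (hKG : K ≤ D.group F) (hLK : Lf D f ≤ K)
    (hKfix : ∀ g ∈ K, glMap D f g = g) {g : GL D.Idx F} (hg : g ∈ D.group F) (hfix : glMap D f g = g)
    {y : GL D.Idx F} (hy : y ∈ K) : g * y * g⁻¹ ∈ K := by
  obtain ⟨l, hl, h, hh, hh1, rfl⟩ := fixed_decomp hF f hg hfix
  obtain ⟨l', hl', h', hh', hh'1, rfl⟩ := fixed_decomp hF f (hKG hy) (hKfix y hy)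
  have hh'K : h' ∈ K := by
    have : h' = l'⁻¹ * (l' * h') := by group
    rw [this]
    exact Subgroup.mul_mem _ (Subgroup.inv_mem _ (hLK hl')) hy
  have e : l * h * (l' * h') * (l * h)⁻¹ = l * (h * l' * h⁻¹) * (h * h' * h⁻¹) * l⁻¹ := by group
  have e2 : h * h' * h⁻¹ = h' := by
    rw [diagonal_comm hF hh hh']
    group
  rw [e, e2]
  exact Subgroup.mul_mem _ (Subgroup.mul_mem _ (Subgroup.mul_mem _ (hLK hl) (hLK (conj_Lf hF f hh hh1 hl'))) hh'K)
    (Subgroup.inv_mem _ (hLK hl))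

/-- The centraliser and normaliser of a group between `L` and the fixed points. -/
theorem cent_norm_main {K : Subgroup (GL D.Idx F)} (hKG : K ≤ D.group F) (hLK : Lf D f ≤ K)
    (hKfix : ∀ g ∈ K, glMap D f g = g) :
    D.group F ⊓ Subgroup.centralizer (K : Set (GL D.Idx F)) = ⊥ ∧
    ∀ g : GL D.Idx F, g ∈ D.group F → (g ∈ Subgroup.normalizer (K : Set (GL D.Idx F)) ↔ glMap D f g = g) := by
  have hcent : D.group F ⊓ Subgroup.centralizer (K : Set (GL D.Idx F)) = ⊥ := by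
    rw [eq_bot_iff]
    rintro g ⟨hg, hc⟩
    rw [Subgroup.mem_bot]
    apply eq_one_of_comm hF hg
    intro s hs
    have h1 := Subgroup.mem_centralizer_iff.1 hc (hF.c.xG s 1) (hLK (xG_mem_Lf hF f hs (map_one f)))
    exact h1.symm
  refine ⟨hcent, ?_⟩
  intro g hg
  constructor
  · intro hn
    have hsg := sig_group f hg
    have h1 : g⁻¹ * glMap D f g ∈ D.group F ⊓ Subgroup.centralizer (K : Set (GL D.Idx F)) := by
      refine ⟨Subgroup.mul_mem _ (Subgroup.inv_mem _ hg) hsg, Subgroup.mem_centralizer_iff.2 ?_⟩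
      intro y hy
      have h2 := hKfix _ ((Subgroup.mem_set_normalizer_iff.1 hn y).1 hy)
      have h3 := hKfix y hy
      rw [map_mul, map_mul, map_inv, h3] at h2
      have h4 : glMap D f g * y = g * y * g⁻¹ * glMap D f g := by
        rw [← h2]
        group
      have h5 : y * (g⁻¹ * glMap D f g) = g⁻¹ * (g * y * g⁻¹ * glMap D f g) := by group
      rw [h5, ← h4]
      group
    rw [hcent, Subgroup.mem_bot] at h1
    exact (inv_mul_eq_one.1 h1).symm
  · intro hfix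
    rw [Subgroup.mem_set_normalizer_iff]
    intro y
    constructor
    · intro hy
      exact conj_mem_of_fixed hF f hKG hLK hKfix hg hfix hy
    · intro hy
      have h1 := conj_mem_of_fixed hF f hKG hLK hKfix (Subgroup.inv_mem _ hg) (by rw [map_inv, hfix]) hy
      have h2 : g⁻¹ * (g * y * g⁻¹) * g⁻¹⁻¹ = y := by group
      rwa [h2] at h1

end sigma

end Cfsg.Agent.Lib.ChevAut.SubField
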