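import Mathlib
import Cfsg.Agent.Lib.ChevAut.WClosed

/-!
# Weakly closed subgroups: the torus separation and the commutator subgroup of `U`
-/

set_option autoImplicit false
set_option linter.unusedSectionVars false
set_option linter.unusedVariables false
set_option linter.unnecessarySimpa false

namespace Cfsg.Agent.Lib.ChevAut.WClosed

open Cfsg Cfsg.Lie Matrix Cfsg.Agent.Lib.Chev Cfsg.Agent.Lib.Chev.Full Cfsg.Agent.Lib.Chev.Tri
open Cfsg.Agent.Lib.ChevAut.LongRoot Cfsg.Agent.Lib.ChevAut.RootCent Cfsg.Agent.Lib.ChevAut.ParabFit Equiv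
open scoped commutatorElement

variable {T : Tabs} {X : Extra} {R : RootTab} {D : ChevalleyDatum} (hF : Full T X R D)
variable {F : Type*} [Field F]

theorem chiT_mul (c e : Fin D.rank → Fˣ) (s : ℕ) : chiT D (c * e) s = chiT D c s * chiT D e s := by
  unfold chiT
  simp only [Pi.mul_apply, mul_zpow, Finset.prod_mul_distrib]

include hF in
/-- Separation of the simple root characters on the torus. -/
theorem hsep_of_table [Fintype F] {P : ℤ → Prop}
    (hP : ∀ m, P m → ¬ (((Fintype.card F - 1 : ℕ) : ℤ) ∣ m))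
    (htab : ∀ i < D.rank, ∀ j < D.rank, i ≠ j → ∃ a < D.rank, ∃ b < D.rank,
      P (D.cartan b (D.simple i) * D.cartan a (D.simple j) - D.cartan a (D.simple i) * D.cartan b (D.simple j))) :
    ∀ i j : Fin D.rank, i ≠ j → ∃ c : Fin D.rank → Fˣ, chiT D c (D.simple i) = 1 ∧ chiT D c (D.simple j) ≠ 1 := by
  classical
  intro i j hij
  obtain ⟨a, ha, b, hb, hm⟩ := htab i i.2 j j.2 (fun e => hij (Fin.ext e))
  obtain ⟨ζ, hζ⟩ := IsCyclic.exists_generator (α := Fˣ)
  have hord : orderOf ζ = Fintype.card F - 1 := by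
    rw [← Fintype.card_units]
    exact orderOf_eq_card_of_forall_mem_zpowers hζ |>.trans (Nat.card_eq_fintype_card)
  let A : Fin D.rank := ⟨a, ha⟩
  let B : Fin D.rank := ⟨b, hb⟩
  refine ⟨Pi.mulSingle A (ζ ^ D.cartan b (D.simple i)) * Pi.mulSingle B (ζ ^ (- D.cartan a (D.simple i))), ?_, ?_⟩
  · rw [chiT_mul, hF.mulSingle_chiT, hF.mulSingle_chiT, ← _root_.zpow_mul, ← _root_.zpow_mul, ← _root_.zpow_add]
    have : D.cartan b (D.simple i) * D.cartan (A : ℕ) (D.simple i) + -D.cartan a (D.simple i) * D.cartan (B : ℕ) (D.simple i) = 0 := by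
      simp only [A, B]
      ring
    rw [this, _root_.zpow_zero]
  · rw [chiT_mul, hF.mulSingle_chiT, hF.mulSingle_chiT, ← _root_.zpow_mul, ← _root_.zpow_mul, ← _root_.zpow_add]
    intro h
    apply hP _ hm
    rw [← hord]
    apply orderOf_dvd_iff_zpow_eq_one.2
    convert h using 2
    simp only [A, B]
    ring

/-! ### The commutator subgroup -/

/-- A term of a commutator formula that is not known to be trivial. -/
def ntriv (van : ℤ → Bool) (Done : List ℕ) (c : ℕ × ℤ × ℕ × ℕ) : Bool :=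
  !(List.elem c.1 Done) && !(van c.2.1)

/-- The root obtained from a commutator. -/
def stepOut (D : ChevalleyDatum) (van uni : ℤ → Bool) (dmax : ℕ) (Done : List ℕ) (st : ℕ × ℕ) : Option ℕ :=
  match (D.commTerms st.1 st.2).filter (ntriv van Done) with
  | [e] => if e.2.2.2 == 1 && uni e.2.1 then some e.1 else none
  | [e1, e2] =>
    if e1.2.2.2 == 1 && e2.2.2.2 == 1 && Nat.blt e1.2.2.1 e2.2.2.1 && Nat.ble (e2.2.2.1 - e1.2.2.1) dmax && uni e2.2.1 then
      some e2.1 else none
  | _ => none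

/-- The roots obtained from a list of commutators. -/
def runSteps (D : ChevalleyDatum) (N : ℕ) (van uni : ℤ → Bool) (dmax : ℕ) : List (ℕ × ℕ) → List ℕ → List ℕ
  | [], d => d
  | st :: l, d =>
    if Nat.ble N st.1 && Nat.blt st.1 D.nroots && Nat.ble N st.2 && Nat.blt st.2 D.nroots && !(st.1 == st.2) then
      match stepOut D van uni dmax d st with
      | some k => runSteps D N van uni dmax l (k :: d)
      | none => runSteps D N van uni dmax l d
    else runSteps D N van uni dmax l d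

include hF

theorem C_conj {g c : GL D.Idx F} (hg : g ∈ D.posUnipotent F) (hc : c ∈ ⁅D.posUnipotent F, D.posUnipotent F⁆) :
    g * c * g⁻¹ ∈ ⁅D.posUnipotent F, D.posUnipotent F⁆ := by
  have : ⁅D.posUnipotent F, D.posUnipotent F⁆ ≤ (⁅D.posUnipotent F, D.posUnipotent F⁆).comap (MulAut.conj g).toMonoidHom := by
    rw [Subgroup.commutator_le]
    intro a ha b hb
    rw [Subgroup.mem_comap]
    show g * ⁅a, b⁆ * g⁻¹ ∈ _
    have e : g * ⁅a, b⁆ * g⁻¹ = ⁅g * a * g⁻¹, g * b * g⁻¹⁆ := by
      simp only [commutatorElement_def]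
      group
    rw [e]
    exact Subgroup.commutator_mem_commutator
      (Subgroup.mul_mem _ (Subgroup.mul_mem _ hg ha) (Subgroup.inv_mem _ hg))
      (Subgroup.mul_mem _ (Subgroup.mul_mem _ hg hb) (Subgroup.inv_mem _ hg))
  exact this hc

/-- The elements `wordG` of commutator formulas lie in the commutator subgroup. -/
theorem word_mem {r s : ℕ} (hr : r < D.nroots) (hs : s < D.nroots) (hrp : R.N ≤ r) (hsp : R.N ≤ s) (hne : s ≠ r) (t u : F) :
    hF.c.wordG (D.commWord F r s t u) ∈ ⁅D.posUnipotent F, D.posUnipotent F⁆ := by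
  have h := hF.xG_comm hr hs hne (neg_ne_of_pos hF hr hrp hsp) t u
  have e : hF.c.wordG (D.commWord F r s t u) = ⁅(hF.c.xG s u)⁻¹, (hF.c.xG r t)⁻¹⁆ := by
    simp only [commutatorElement_def, inv_inv]
    calc hF.c.wordG (D.commWord F r s t u)
        = (hF.c.xG r t * hF.c.xG s u)⁻¹ * (hF.c.xG r t * hF.c.xG s u * hF.c.wordG (D.commWord F r s t u)) := by group
      _ = (hF.c.xG r t * hF.c.xG s u)⁻¹ * (hF.c.xG s u * hF.c.xG r t) := by rw [h]
      _ = _ := by group
  rw [e]
  exact Subgroup.commutator_mem_commutator (Subgroup.inv_mem _ (hF.xG_mem_U hs hsp u)) (Subgroup.inv_mem _ (hF.xG_mem_U hr hrp t))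

/-- Deleting the trivial terms of a product. -/
theorem word_filter {C : Subgroup (GL D.Idx F)} (hCn : ∀ g c, g ∈ D.posUnipotent F → c ∈ C → g * c * g⁻¹ ∈ C)
    (f : ℕ × ℤ × ℕ × ℕ → ℕ × F) (p : ℕ × ℤ × ℕ × ℕ → Bool) :
    ∀ l : List (ℕ × ℤ × ℕ × ℕ), (∀ c ∈ l, hF.c.xG (f c).1 (f c).2 ∈ D.posUnipotent F) →
      (∀ c ∈ l, p c = false → hF.c.xG (f c).1 (f c).2 ∈ C) →
      (hF.c.wordG (l.map f))⁻¹ * hF.c.wordG ((l.filter p).map f) ∈ C := by
  have hU : ∀ l : List (ℕ × ℤ × ℕ × ℕ), (∀ c ∈ l, hF.c.xG (f c).1 (f c).2 ∈ D.posUnipotent F) →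
      hF.c.wordG (l.map f) ∈ D.posUnipotent F := by
    intro l
    induction l with
    | nil =>
      intro _
      rw [List.map_nil, Checks.wordG_nil]
      exact Subgroup.one_mem _
    | cons c l ih =>
      intro h
      rw [List.map_cons, Checks.wordG_cons]
      exact Subgroup.mul_mem _ (h c (List.mem_cons_self ..)) (ih fun c hc => h c (List.mem_cons_of_mem _ hc))
  intro l
  induction l with
  | nil =>
    intro _ _
    simp [Checks.wordG_nil]
  | cons c l ih =>
    intro h1 h2
    have h1' : ∀ c ∈ l, hF.c.xG (f c).1 (f c).2 ∈ D.posUnipotent F := fun c hc => h1 c (List.mem_cons_of_mem _ hc)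
    have h2' : ∀ c ∈ l, p c = false → hF.c.xG (f c).1 (f c).2 ∈ C := fun c hc => h2 c (List.mem_cons_of_mem _ hc)
    have h3 := ih h1' h2'
    rw [List.map_cons, Checks.wordG_cons]
    cases hp : p c with
    | true =>
      rw [List.filter_cons_of_pos hp, List.map_cons, Checks.wordG_cons]
      have e : (hF.c.xG (f c).1 (f c).2 * hF.c.wordG (l.map f))⁻¹ * (hF.c.xG (f c).1 (f c).2 * hF.c.wordG ((l.filter p).map f)) =
          (hF.c.wordG (l.map f))⁻¹ * hF.c.wordG ((l.filter p).map f) := by group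
      rw [e]
      exact h3
    | false =>
      rw [List.filter_cons_of_neg (by simp [hp])]
      have hx := h2 c (List.mem_cons_self ..) hp
      have hw : hF.c.wordG ((l.filter p).map f) ∈ D.posUnipotent F :=
        hU _ (fun c hc => h1' c (List.mem_of_mem_filter hc))
      have e : (hF.c.xG (f c).1 (f c).2 * hF.c.wordG (l.map f))⁻¹ * hF.c.wordG ((l.filter p).map f) =
          ((hF.c.wordG (l.map f))⁻¹ * hF.c.wordG ((l.filter p).map f)) *
          ((hF.c.wordG ((l.filter p).map f))⁻¹ * (hF.c.xG (f c).1 (f c).2)⁻¹ * ((hF.c.wordG ((l.filter p).map f))⁻¹)⁻¹) := by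
        group
      rw [e]
      exact Subgroup.mul_mem _ h3 (hCn _ _ (Subgroup.inv_mem _ hw) (Subgroup.inv_mem _ hx))

/-- One step of the derivation. -/
theorem step_sound {van uni : ℤ → Bool} {dmax : ℕ} {Done : List ℕ}
    (hvan : ∀ c : ℤ, van c = true → (c : F) = 0) (huni : ∀ c : ℤ, uni c = true → (c : F) ≠ 0)
    (hd : ∀ d, 1 ≤ d → d ≤ dmax → ∃ τ : F, τ ≠ 0 ∧ τ ^ d ≠ 1)
    (hDone : ∀ k ∈ Done, ∀ t : F, hF.c.xG k t ∈ ⁅D.posUnipotent F, D.posUnipotent F⁆)
    {r s k : ℕ} (hr : r < D.nroots) (hs : s < D.nroots) (hrp : R.N ≤ r) (hsp : R.N ≤ s) (hne : s ≠ r)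
    (h : stepOut D van uni dmax Done (r, s) = some k) (v : F) :
    hF.c.xG k v ∈ ⁅D.posUnipotent F, D.posUnipotent F⁆ := by
  set C := ⁅D.posUnipotent F, D.posUnipotent F⁆ with hC
  have hne' := neg_ne_of_pos hF hr hrp hsp
  let fn : F → F → ℕ × ℤ × ℕ × ℕ → ℕ × F := fun t u c => (c.1, (c.2.1 : F) * (-t) ^ c.2.2.1 * u ^ c.2.2.2)
  have hword : ∀ t u : F, hF.c.wordG (((D.commTerms r s).filter (ntriv van Done)).map (fn t u)) ∈ C := by
    intro t u
    have h1 := word_mem hF hr hs hrp hsp hne t u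
    have h2 := word_filter hF (C := C) (fun g c hg hc => C_conj hF hg hc) (fn t u) (ntriv van Done) (D.commTerms r s)
      (fun c hc => by
        have h3 := hF.commTerm_pos hr hs hne hne' hc hrp hsp
        have h4 := (hF.commTerms_spec hr hs hne hne' hc).1
        exact hF.xG_mem_U h4 h3.1 _)
      (fun c hc hp => by
        unfold ntriv at hp
        rw [Bool.and_eq_false_iff] at hp
        rcases hp with hp | hp
        · simp only [Bool.not_eq_false'] at hp
          exact hDone _ (List.elem_iff.1 hp) _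
        · simp only [Bool.not_eq_false'] at hp
          show hF.c.xG c.1 ((c.2.1 : F) * (-t) ^ c.2.2.1 * u ^ c.2.2.2) ∈ C
          rw [hvan _ hp, zero_mul, zero_mul, hF.c.xG_zero]
          exact Subgroup.one_mem _)
    have e : D.commWord F r s t u = (D.commTerms r s).map (fn t u) := rfl
    rw [e] at h1
    have h3 := Subgroup.mul_mem _ h1 h2
    rwa [mul_inv_cancel_left] at h3
  unfold stepOut at h
  simp only at h
  split at h
  · rename_i e he
    simp only [Option.ite_none_right_eq_some, Bool.and_eq_true, beq_iff_eq, Option.some.injEq] at h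
    obtain ⟨⟨h1, h2⟩, rfl⟩ := h
    have hc := huni _ h2
    have h3 := hword (-1) (v / (e.2.1 : F))
    rw [he, List.map_cons, List.map_nil, Checks.wordG_cons, Checks.wordG_nil, mul_one] at h3
    simp only [fn] at h3
    rw [_root_.neg_neg, one_pow, mul_one, h1, pow_one, mul_div_cancel₀ _ hc] at h3
    exact h3
  · rename_i e1 e2 he
    simp only [Option.ite_none_right_eq_some, Bool.and_eq_true, beq_iff_eq, Option.some.injEq] at h
    obtain ⟨⟨⟨⟨⟨h1, h2⟩, h3⟩, h4⟩, h5⟩, rfl⟩ := h
    have h3' : e1.2.2.1 + 1 ≤ e2.2.2.1 := Nat.le_of_ble_eq_true h3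
    have h4' : e2.2.2.1 - e1.2.2.1 ≤ dmax := Nat.le_of_ble_eq_true h4
    have hc := huni _ h5
    obtain ⟨τ, hτ0, hτ1⟩ := hd (e2.2.2.1 - e1.2.2.1) (by omega) h4'
    set d := e2.2.2.1 - e1.2.2.1 with hdd
    have hi : e2.2.2.1 = e1.2.2.1 + d := by omega
    have hden : (e2.2.1 : F) * (τ ^ d - 1) ≠ 0 := mul_ne_zero hc (sub_ne_zero.2 hτ1)
    set w := v / ((e2.2.1 : F) * (τ ^ d - 1)) with hw
    have key : ∀ σ : F, σ ≠ 0 → hF.c.xG e1.1 ((e1.2.1 : F) * w) * hF.c.xG e2.1 ((e2.2.1 : F) * σ ^ d * w) ∈ C := by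
      intro σ hσ
      have h6 := hword (-σ) (w / σ ^ e1.2.2.1)
      rw [he, List.map_cons, List.map_cons, List.map_nil, Checks.wordG_cons, Checks.wordG_cons, Checks.wordG_nil, mul_one] at h6
      simp only [fn] at h6
      rw [_root_.neg_neg, h1, h2, pow_one, hi] at h6
      have hσ' : σ ^ e1.2.2.1 ≠ 0 := pow_ne_zero _ hσ
      have e3 : (e1.2.1 : F) * σ ^ e1.2.2.1 * (w / σ ^ e1.2.2.1) = (e1.2.1 : F) * w := by
        field_simp
      have e4 : (e2.2.1 : F) * σ ^ (e1.2.2.1 + d) * (w / σ ^ e1.2.2.1) = (e2.2.1 : F) * σ ^ d * w := by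
        rw [pow_add]
        field_simp
      rw [e3, e4] at h6
      exact h6
    have h7 := Subgroup.mul_mem _ (Subgroup.inv_mem _ (key 1 one_ne_zero)) (key τ hτ0)
    have e5 : (hF.c.xG e1.1 ((e1.2.1 : F) * w) * hF.c.xG e2.1 ((e2.2.1 : F) * 1 ^ d * w))⁻¹ *
        (hF.c.xG e1.1 ((e1.2.1 : F) * w) * hF.c.xG e2.1 ((e2.2.1 : F) * τ ^ d * w)) =
        (hF.c.xG e2.1 ((e2.2.1 : F) * 1 ^ d * w))⁻¹ * hF.c.xG e2.1 ((e2.2.1 : F) * τ ^ d * w) := by
      group
    rw [e5, hF.c.xG_inv, hF.c.xG_add] at h7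
    have e6 : -((e2.2.1 : F) * 1 ^ d * w) + (e2.2.1 : F) * τ ^ d * w = v := by
      rw [hw, one_pow]
      field_simp
      ring
    rw [e6] at h7
    exact h7
  · simp at h

/-- The derivation. -/
theorem run_sound {van uni : ℤ → Bool} {dmax : ℕ}
    (hvan : ∀ c : ℤ, van c = true → (c : F) = 0) (huni : ∀ c : ℤ, uni c = true → (c : F) ≠ 0)
    (hd : ∀ d, 1 ≤ d → d ≤ dmax → ∃ τ : F, τ ≠ 0 ∧ τ ^ d ≠ 1) :
    ∀ (l : List (ℕ × ℕ)) (d : List ℕ), (∀ k ∈ d, ∀ t : F, hF.c.xG k t ∈ ⁅D.posUnipotent F, D.posUnipotent F⁆) →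
      ∀ k ∈ runSteps D R.N van uni dmax l d, ∀ t : F, hF.c.xG k t ∈ ⁅D.posUnipotent F, D.posUnipotent F⁆ := by
  intro l
  induction l with
  | nil =>
    intro d hd' k hk
    exact hd' k hk
  | cons st l ih =>
    intro d hd' k hk
    unfold runSteps at hk
    split at hk
    · rename_i hc
      simp only [Bool.and_eq_true, Bool.not_eq_true', beq_eq_false_iff_ne] at hc
      obtain ⟨⟨⟨⟨h1, h2⟩, h3⟩, h4⟩, h5⟩ := hc
      have h1' := Nat.le_of_ble_eq_true h1
      have h2' : st.1 + 1 ≤ D.nroots := Nat.le_of_ble_eq_true h2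
      have h3' := Nat.le_of_ble_eq_true h3
      have h4' : st.2 + 1 ≤ D.nroots := Nat.le_of_ble_eq_true h4
      split at hk
      · rename_i k' hk'
        refine ih _ ?_ k hk
        intro m hm
        rcases List.mem_cons.1 hm with rfl | hm
        · exact fun t => step_sound hF hvan huni hd hd' h2' h4' h1' h3' (Ne.symm h5) (by simpa using hk') t
        · exact hd' m hm
      · exact ih d hd' k hk
    · exact ih d hd' k hk

/-- The non-simple root subgroups lie in the commutator subgroup. -/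
theorem hcomm_of_run {van uni : ℤ → Bool} {dmax : ℕ} (steps : List (ℕ × ℕ))
    (hvan : ∀ c : ℤ, van c = true → (c : F) = 0) (huni : ∀ c : ℤ, uni c = true → (c : F) ≠ 0)
    (hd : ∀ d, 1 ≤ d → d ≤ dmax → ∃ τ : F, τ ≠ 0 ∧ τ ^ d ≠ 1)
    (hall : ∀ r < D.nroots, R.N ≤ r → (∀ i < D.rank, r ≠ D.simple i) → r ∈ runSteps D R.N van uni dmax steps []) :
    ∀ r, R.N ≤ r → r < D.nroots → (∀ i < D.rank, r ≠ D.simple i) → ∀ t : F,
      hF.c.xG r t ∈ ⁅D.posUnipotent F, D.posUnipotent F⁆ := by
  intro r h1 h2 h3 t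
  exact run_sound hF hvan huni hd steps [] (by simp) r (hall r h2 h1 h3) t


/-! ### The statement for the tabulated types -/

/-- The char-free coefficient tests. -/
def vanFree (c : ℤ) : Bool := c == 0
/-- The char-free coefficient tests. -/
def uniFree (c : ℤ) : Bool := c == 1 || c == -1
/-- Minors good for `q ≥ 4`. -/
def isP12 (m : ℤ) : Bool := m == 1 || m == -1 || m == 2 || m == -2
/-- Minors good for `q = 3`. -/
def isOddZ (m : ℤ) : Bool := m % 2 == 1

/-- The derivation of the non-simple roots for type B2. -/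
def stepsB2 : List (ℕ × ℕ) := [(5, 4), (4, 5)]

/-- The derivation of the non-simple roots for type D4. -/
def stepsD4 : List (ℕ × ℕ) := [(12, 14), (12, 16), (12, 19), (12, 21), (13, 14), (13, 19), (14, 18), (14, 22)]

/-- The derivation of the non-simple roots for type F4. -/
def stepsF4 : List (ℕ × ℕ) := [(24, 25), (24, 30), (24, 41), (24, 46), (25, 31), (24, 28), (25, 38), (25, 42), (24, 35), (25, 45), (27, 25), (25, 27), (27, 33), (27, 35), (27, 36), (27, 39), (27, 43), (27, 43), (28, 33), (33, 30)]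

/-- The derivation of the non-simple roots for type E6. -/
def stepsE6 : List (ℕ × ℕ) := [(36, 37), (36, 40), (36, 44), (36, 48), (36, 51), (36, 53), (36, 59), (36, 62), (36, 64), (36, 67), (37, 39), (37, 43), (37, 47), (37, 50), (37, 54), (37, 58), (37, 61), (37, 65), (37, 68), (39, 42), (39, 46), (39, 51), (39, 57), (39, 62), (39, 69), (42, 47), (42, 56), (42, 64), (46, 58), (46, 70)]

/-- The derivation of the non-simple roots for type E7. -/
def stepsE7 : List (ℕ × ℕ) := [(63, 64), (63, 67), (63, 71), (63, 76), (63, 81), (63, 85), (63, 88), (63, 90), (63, 97), (63, 101), (63, 104), (63, 106), (63, 110), (63, 112), (63, 115), (63, 119), (64, 66), (64, 70), (64, 75), (64, 80), (64, 84), (64, 87), (64, 91), (64, 96), (64, 100), (64, 103), (64, 107), (64, 109), (64, 113), (64, 116), (64, 120), (66, 69), (66, 74), (66, 79), (66, 83), (66, 88), (66, 95), (66, 99), (66, 104), (66, 110), (66, 117), (66, 121), (69, 73), (69, 78), (69, 84), (69, 94), (69, 100), (69, 112), (69,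 122), (73, 79), (73, 93), (73, 103), (73, 123), (78, 95), (78, 115), (93, 124)]

/-- The derivation of the non-simple roots for type E8. -/
def stepsE8 : List (ℕ × ℕ) := [(120, 121), (120, 124), (120, 128), (120, 133), (120, 139), (120, 145), (120, 150), (120, 154), (120, 157), (120, 159), (120, 167), (120, 172), (120, 176), (120, 179), (120, 181), (120, 186), (120, 189), (120, 191), (120, 195), (120, 197), (120, 200), (120, 205), (120, 207), (120, 210), (120, 214), (120, 219), (120, 226), (120, 238), (121, 123), (121, 127), (121, 132), (121, 138), (121, 144), (121, 149), (121, 153), (121, 156), (121, 160), (121, 166), (121, 171), (121, 175), (121, 178), (121, 182), (121, 185), (121, 188), (121, 192), (121, 194), (121, 198), (121, 201), (121, 204), (121, 208), (121, 211), (121, 215), (121, 220), (121, 227), (121, 237), (123, 126), (123, 131), (123, 137), (123, 143), (123, 148), (123, 152), (123, 157), (123, 165), (123, 170), (123, 174), (123, 179), (123, 184), (123, 189),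 (123, 195), (123, 202), (123, 205), (123, 212), (123, 216), (123, 221), (123, 228), (123, 236), (126, 130), (126, 136), (126, 142), (126, 147), (126, 153), (126, 164), (126, 169), (126, 175), (126, 185), (126, 197), (126, 207), (126, 217), (126, 222), (126, 229), (126, 235), (130, 135), (130, 141), (130, 148), (130, 163), (130, 170), (130, 188), (130, 210), (130, 223), (130, 230), (130, 234), (135, 142), (135, 162), (135, 174), (135, 214), (135, 231), (135, 233), (141, 164), (141, 194), (141, 224), (141, 231), (162, 219)]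

/-- The derivation of the non-simple roots for type G2. -/
def stepsG2 : List (ℕ × ℕ) := [(6, 10), (7, 8), (7, 6), (6, 7)]

omit hF in
theorem hP12 [Fintype F] (hq : 4 ≤ Fintype.card F) (m : ℤ) (h : isP12 m = true) :
    ¬ (((Fintype.card F - 1 : ℕ) : ℤ) ∣ m) := by
  intro hd
  have h1 : (Fintype.card F - 1) ∣ m.natAbs := Int.natCast_dvd.1 hd
  have h2 : m.natAbs ≠ 0 ∧ m.natAbs ≤ 2 := by
    unfold isP12 at h
    simp only [Bool.or_eq_true, beq_iff_eq] at h
    rcases h with ((rfl | rfl) | rfl) | rfl <;> simp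
  have h3 := Nat.le_of_dvd (by omega) h1
  omega

omit hF in
theorem hPodd [Fintype F] (hq : Fintype.card F = 3) (m : ℤ) (h : isOddZ m = true) :
    ¬ (((Fintype.card F - 1 : ℕ) : ℤ) ∣ m) := by
  rw [hq]
  intro hd
  unfold isOddZ at h
  simp only [beq_iff_eq] at h
  have : (2 : ℤ) ∣ m := by simpa using hd
  omega

omit hF in
theorem exists_ne_zero_one [Fintype F] (hq : Fintype.card F ≠ 2) : ∃ τ : F, τ ≠ 0 ∧ τ ≠ 1 := by
  classical
  by_contra hcon
  push Not at hcon
  apply hq
  have h1 : Fintype.card F ≤ 2 := by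
    have : (Finset.univ : Finset F) ⊆ {0, 1} := by
      intro x _
      by_cases hx : x = 0
      · simp [hx]
      · simp [hcon x hx]
    calc Fintype.card F = (Finset.univ : Finset F).card := rfl
      _ ≤ ({0, 1} : Finset F).card := Finset.card_le_card this
      _ ≤ 2 := Finset.card_le_two
  have h2 := Fintype.one_lt_card (α := F)
  omega

omit hF in
theorem exists_sq_ne_one [Fintype F] (hq : 4 ≤ Fintype.card F) : ∃ τ : F, τ ≠ 0 ∧ τ ^ 2 ≠ 1 := by
  classical
  by_contra hcon
  push Not at hcon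
  have h1 : (Finset.univ : Finset F) ⊆ {0, 1, -1} := by
    intro x _
    by_cases hx : x = 0
    · simp [hx]
    · have := hcon x hx
      have h2 : (x - 1) * (x + 1) = 0 := by
        have : (x - 1) * (x + 1) = x ^ 2 - 1 := by ring
        rw [this, hcon x hx, sub_self]
      rcases mul_eq_zero.1 h2 with h3 | h3
      · simp [sub_eq_zero.1 h3]
      · simp [eq_neg_of_add_eq_zero_left h3]
  have h2 : Fintype.card F ≤ 3 := by
    calc Fintype.card F = (Finset.univ : Finset F).card := rfl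
      _ ≤ ({0, 1, -1} : Finset F).card := Finset.card_le_card h1
      _ ≤ 3 := Finset.card_le_three
  omega

/-- The char-free version of the main theorem. -/
theorem main_free [Fintype F] (p : ℕ) [Fact p.Prime] [CharP F p] (hq2 : Fintype.card F ≠ 2)
    (hsep : ∀ i j : Fin D.rank, i ≠ j → ∃ c : Fin D.rank → Fˣ, chiT D c (D.simple i) = 1 ∧ chiT D c (D.simple j) ≠ 1)
    (steps : List (ℕ × ℕ))
    (hcor : ∀ i < D.rank, (D.coroot.getD (D.simple i) #[]).getD i 0 = 1)
    (hc2 : ∀ i < D.rank, D.cartan i (D.simple i) = 2)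
    (hall : ∀ r < D.nroots, R.N ≤ r → (∀ i < D.rank, r ≠ D.simple i) → r ∈ runSteps D R.N vanFree uniFree 1 steps [])
    (Y : Subgroup (GL D.Idx F)) (hYU : Y ≤ D.posUnipotent F)
    (hwc : ∀ g ∈ D.group F, Y.map (MulAut.conj g).toMonoidHom ≤ D.posUnipotent F → Y.map (MulAut.conj g).toMonoidHom = Y) :
    ∃ J : Set ℕ, (∀ j ∈ J, j < D.rank) ∧ Y = D.unipotentRadical F J := by
  refine main hF p hcor hc2 hsep (hcomm_of_run hF steps ?_ ?_ ?_ hall) Y hYU hwc
  · intro c hc
    unfold vanFree at hc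
    simp only [beq_iff_eq] at hc
    simp [hc]
  · intro c hc
    unfold uniFree at hc
    simp only [Bool.or_eq_true, beq_iff_eq] at hc
    rcases hc with rfl | rfl <;> simp
  · intro d h1 h2
    have : d = 1 := by omega
    subst this
    obtain ⟨τ, h3, h4⟩ := exists_ne_zero_one (F := F) hq2
    exact ⟨τ, h3, by simpa using h4⟩

end Cfsg.Agent.Lib.ChevAut.WClosed
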